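import Cfsg.Agent.ClassicalGeometry.SympBasic

/-!
# S3010, `PSp_2m(q)`, `q` even: opposite of a symmetric nilpotent element (helper736)

* `ginv` : in a ring of characteristic 2 with an anti-involution `st`: a symmetric `N` with `N² = 0` and a generalized
  inverse has a symmetric `M` with `M² = 0`, `N M N = N`, `M N M = M`;
* `exists_opp` : the case of matrices and the symplectic form.
-/

set_option autoImplicit false

namespace Cfsg.Agent.H736.SK

open Matrix Cfsg Cfsg.Agent.ClassicalGeometry.SympBasic

/-- **Symmetric square zero generalized inverses.** -/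
theorem ginv {R : Type*} [Ring R] (h2 : ∀ x : R, x + x = 0) (st : R → R)
    (hadd : ∀ a b, st (a + b) = st a + st b) (hmul : ∀ a b, st (a * b) = st b * st a)
    (hst : ∀ a, st (st a) = a) (h1 : st 1 = 1) {N : R} (hN : st N = N) (hNN : N * N = 0)
    (hg : ∃ A, N * A * N = N) (halt : ∀ B, ∃ T, st B * B = T + st T) :
    ∃ M, st M = M ∧ M * M = 0 ∧ N * M * N = N ∧ M * N * M = M := by
  obtain ⟨A, hA⟩ := hg
  have hA' : N * st A * N = N := by
    have h := congrArg st hA
    rw [hmul, hmul, hN, ← mul_assoc] at h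
    exact h
  obtain ⟨B, hB⟩ : ∃ B, B = A * N * st A := ⟨_, rfl⟩
  have hB1 : st B = B := by
    rw [hB, hmul, hmul, hst, hN, mul_assoc]
  have hB2 : N * B * N = N := by
    calc N * B * N = (N * A * N) * st A * N := by rw [hB]; noncomm_ring
      _ = N := by rw [hA, hA']
  have hB3 : B * N * B = B := by
    calc B * N * B = A * (N * st A * N) * A * N * st A := by
          conv_lhs => rw [hB]
          noncomm_ring
      _ = A * (N * A * N) * st A := by rw [hA']; noncomm_ring
      _ = B := by rw [hA, hB]
  obtain ⟨T, hT⟩ := halt B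
  rw [hB1] at hT
  have c1 : (1 + N * st T * N) * N = N := by
    rw [add_mul, one_mul, mul_assoc, hNN, mul_zero, add_zero]
  have c2 : N * (1 + N * T * N) = N := by
    rw [mul_add, mul_one, ← mul_assoc, ← mul_assoc, hNN, zero_mul, zero_mul, add_zero]
  have c3 : (1 + N * st T * N) * (1 + N * T * N) = 1 + N * (T + st T) * N := by
    have h : N * st T * N * (N * T * N) = 0 := by
      rw [mul_assoc (N * st T) N, ← mul_assoc N (N * T), ← mul_assoc N N, hNN, zero_mul, zero_mul, mul_zero]
    calc (1 + N * st T * N) * (1 + N * T * N) = 1 + N * (T + st T) * N + N * st T * N * (N * T * N) := by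
          noncomm_ring
      _ = _ := by rw [h, add_zero]
  refine ⟨(1 + N * T * N) * B * (1 + N * st T * N), ?_, ?_, ?_, ?_⟩
  · rw [hmul, hmul, hB1, hadd, hadd, h1, hmul, hmul, hmul, hmul, hst, hN]
    noncomm_ring
  · have e : B * ((1 + N * st T * N) * (1 + N * T * N)) * B = 0 := by
      rw [c3, ← hT]
      calc B * (1 + N * (B * B) * N) * B = B * B + (B * N * B) * (B * N * B) := by noncomm_ring
        _ = 0 := by rw [hB3, h2]
    calc (1 + N * T * N) * B * (1 + N * st T * N) * ((1 + N * T * N) * B * (1 + N * st T * N))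
        = (1 + N * T * N) * (B * ((1 + N * st T * N) * (1 + N * T * N)) * B) * (1 + N * st T * N) := by
          noncomm_ring
      _ = 0 := by rw [e, mul_zero, zero_mul]
  · calc N * ((1 + N * T * N) * B * (1 + N * st T * N)) * N
        = (N * (1 + N * T * N)) * B * ((1 + N * st T * N) * N) := by noncomm_ring
      _ = N := by rw [c1, c2, hB2]
  · calc (1 + N * T * N) * B * (1 + N * st T * N) * N * ((1 + N * T * N) * B * (1 + N * st T * N))
        = (1 + N * T * N) * B * ((1 + N * st T * N) * N) * (1 + N * T * N) * B * (1 + N * st T * N) := by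
          noncomm_ring
      _ = (1 + N * T * N) * (B * (N * (1 + N * T * N)) * B) * (1 + N * st T * N) := by
          rw [c1]; noncomm_ring
      _ = _ := by rw [c2, hB3]

/-- symmetric matrices with zero diagonal -/
theorem exists_upper {ι F : Type*} [Fintype ι] [DecidableEq ι] [Field F] {B : Matrix ι ι F} (hs : Bᵀ = B)
    (hd : ∀ i, B i i = 0) : ∃ L : Matrix ι ι F, B = L + Lᵀ := by
  classical
  refine ⟨fun i j => if Fintype.equivFin ι i < Fintype.equivFin ι j then B i j else 0, ?_⟩
  ext i j
  have hij : B j i = B i j := congrFun (congrFun hs i) j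
  change B i j = (if Fintype.equivFin ι i < Fintype.equivFin ι j then B i j else 0) +
    (if Fintype.equivFin ι j < Fintype.equivFin ι i then B j i else 0)
  rcases lt_trichotomy (Fintype.equivFin ι i) (Fintype.equivFin ι j) with h | h | h
  · rw [if_pos h, if_neg h.le.not_gt, add_zero]
  · have h' : i = j := (Fintype.equivFin ι).injective h
    subst h'
    rw [if_neg (lt_irrefl _), add_zero, hd]
  · rw [if_neg h.le.not_gt, if_pos h, zero_add, hij]

/-- generalized inverses -/
theorem exists_ginv {ι F : Type*} [Fintype ι] [DecidableEq ι] [Field F] (N : Matrix ι ι F) :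
    ∃ A : Matrix ι ι F, N * A * N = N := by
  let f := Matrix.toLin' N
  obtain ⟨r, hr⟩ := LinearMap.exists_rightInverse_of_surjective f.rangeRestrict (LinearMap.range_rangeRestrict f)
  obtain ⟨g, hg⟩ := LinearMap.exists_extend r
  refine ⟨LinearMap.toMatrix' g, ?_⟩
  apply Matrix.toLin'.injective
  rw [Matrix.toLin'_mul, Matrix.toLin'_mul, Matrix.toLin'_toMatrix']
  refine LinearMap.ext fun x => ?_
  have h1 : g (f x) = r (f.rangeRestrict x) := by
    rw [← hg]
    rfl
  have h2 : f (r (f.rangeRestrict x)) = f x := congrArg Subtype.val (LinearMap.congr_fun hr (f.rangeRestrict x))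
  change f (g (f x)) = f x
  rw [h1, h2]

/-! ### The symplectic adjoint -/

section Adj

variable {F : Type*} [Field F] [CharP F 2] {m : ℕ}

local notation "ι" => Fin m ⊕ Fin m
local notation "J" => Matrix.J (Fin m) F

theorem add_self_mat (x : Matrix ι ι F) : x + x = 0 := by
  ext i j
  exact CharTwo.add_self_eq_zero _

theorem neg_mat (x : Matrix ι ι F) : -x = x := by
  rw [neg_eq_iff_add_eq_zero]
  exact add_self_mat x

theorem J_sq : (J : Matrix ι ι F) * J = 1 := by
  rw [Matrix.J_squared, neg_mat]

theorem J_tr : (J : Matrix ι ι F)ᵀ = J := by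
  rw [Matrix.J_transpose, neg_mat]

/-- the adjoint -/
def adj (A : Matrix ι ι F) : Matrix ι ι F := J * Aᵀ * J

omit [CharP F 2] in
theorem adj_add (A B : Matrix ι ι F) : adj (A + B) = adj A + adj B := by
  unfold adj
  rw [transpose_add, mul_add, add_mul]

theorem adj_mul (A B : Matrix ι ι F) : adj (A * B) = adj B * adj A := by
  unfold adj
  rw [transpose_mul]
  calc J * (Bᵀ * Aᵀ) * J = J * Bᵀ * 1 * Aᵀ * J := by noncomm_ring
    _ = J * Bᵀ * J * (J * Aᵀ * J) := by rw [← J_sq]; noncomm_ring

theorem adj_adj (A : Matrix ι ι F) : adj (adj A) = A := by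
  unfold adj
  rw [transpose_mul, transpose_mul, J_tr, transpose_transpose]
  calc J * (J * (A * J)) * J = (J * J) * A * (J * J) := by noncomm_ring
    _ = A := by rw [J_sq, one_mul, mul_one]

theorem adj_one : adj (1 : Matrix ι ι F) = 1 := by
  unfold adj
  rw [transpose_one, mul_one, J_sq]

theorem adj_eq_iff {A : Matrix ι ι F} : adj A = A ↔ Aᵀ * J = J * A := by
  unfold adj
  constructor
  · intro h
    calc Aᵀ * J = (J * J) * (Aᵀ * J) := by rw [J_sq, one_mul]
      _ = J * (J * Aᵀ * J) := by noncomm_ring
      _ = J * A := by rw [h]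
  · intro h
    rw [mul_assoc, h, ← mul_assoc, J_sq, one_mul]

omit [CharP F 2] in
theorem adj_smul (c : F) (A : Matrix ι ι F) : adj (c • A) = c • adj A := by
  unfold adj
  rw [transpose_smul, Matrix.mul_smul, Matrix.smul_mul]

omit [CharP F 2] in
theorem form_mul (B : Matrix ι ι F) (u v : ι → F) :
    sympForm m F (B *ᵥ u) (B *ᵥ v) = u ⬝ᵥ ((Bᵀ * J * B) *ᵥ v) := by
  rw [sympForm_def, ← Matrix.mulVec_mulVec, ← Matrix.mulVec_mulVec, Matrix.dotProduct_mulVec u, Matrix.vecMul_transpose]

/-- **The opposite of a symmetric nilpotent matrix.** -/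
theorem exists_opp {N : Matrix ι ι F} (hN : adj N = N) (hNN : N * N = 0) :
    ∃ M : Matrix ι ι F, adj M = M ∧ M * M = 0 ∧ N * M * N = N ∧ M * N * M = M := by
  have key := ginv (R := Matrix ι ι F) add_self_mat (fun A => adj A) (fun a b => adj_add a b) (fun a b => adj_mul a b)
    (fun a => adj_adj a) adj_one hN hNN (exists_ginv N)
  apply key
  intro B
  have hsym : (Bᵀ * J * B)ᵀ = Bᵀ * J * B := by
    rw [transpose_mul, transpose_mul, J_tr, transpose_transpose, mul_assoc]
  have hd : ∀ i, (Bᵀ * J * B) i i = 0 := by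
    intro i
    have h := form_mul B (Pi.single i 1) (Pi.single i 1)
    rw [sympForm_self, Matrix.mulVec_single_one, single_one_dotProduct] at h
    exact h.symm
  obtain ⟨L, hL⟩ := exists_upper hsym hd
  refine ⟨J * L, ?_⟩
  calc adj B * B = J * (Bᵀ * J * B) := by unfold adj; noncomm_ring
    _ = J * (L + Lᵀ) := by rw [← hL]
    _ = J * L + J * Lᵀ := by rw [mul_add]
    _ = J * L + adj (J * L) := by
      unfold adj
      rw [transpose_mul, J_tr]
      congr 1
      calc J * Lᵀ = J * Lᵀ * (J * J) := by rw [J_sq, mul_one]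
        _ = J * (Lᵀ * J) * J := by noncomm_ring

end Adj

end Cfsg.Agent.H736.SK
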