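import Cfsg.Agent.H736.SK.PspCore

/-!
# S3010, `PSp_2m(q)`, `q` even: the homogeneous dihedral group (helper736)

`v` an involution of `Sp_2m(F)`, `char F = 2`, `λ ≠ 0`: there is `x` of odd order inverted by `v` (`exists_inv`) with

* every 2-subgroup `R` of `C = C(⟨v, x⟩)` normalized by `C` is trivial if `(w, v w) = 0` for all `w`, and its
  involutions `r` satisfy `(w, r w) = 0` in any case;
* a semilinear map commuting with `v` and `x` fixes `λ`.
-/

set_option autoImplicit false
set_option linter.unusedSectionVars false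
set_option linter.unusedSimpArgs false

namespace Cfsg.Agent.H736.SK

open Matrix Cfsg Cfsg.Agent.ClassicalGeometry.SympBasic Cfsg.Agent.ClassicalGeometry.SympSiegel

variable {F : Type*} [Field F] [CharP F 2] {m : ℕ}

local notation "V" => (Fin m ⊕ Fin m → F)
local notation "G" => Matrix.symplecticGroup (Fin m) F
local notation "f" => sympForm m F
local notation "Mt" => Matrix (Fin m ⊕ Fin m) (Fin m ⊕ Fin m) F

/-- `1 + A` is symplectic -/
theorem one_add_mem {A : Mt} (hA : adj A = A) (hAA : A * A = 0) : 1 + A ∈ Matrix.symplecticGroup (Fin m) F := by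
  rw [mem_symplecticGroup_iff]
  intro u v
  rw [Matrix.add_mulVec, Matrix.add_mulVec, Matrix.one_mulVec, Matrix.one_mulVec, sympForm_add_left,
    sympForm_add_right, sympForm_add_right, form_adj hA, form_adj hA, Matrix.mulVec_mulVec, hAA, Matrix.zero_mulVec,
    sympForm_zero_right, add_zero, add_assoc, CharTwo.add_self_eq_zero, add_zero]

/-- the nilpotent matrix of an involution -/
theorem adj_of_inv {v : G} (hv : v * v = 1) : adj (1 + (v : Mt)) = 1 + (v : Mt) := by
  have h1 : (v : Mt) * (v : Mt) = 1 := by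
    have := congrArg Subtype.val hv
    exact this
  rw [adj_eq_iff, transpose_add, transpose_one, add_mul, mul_add, one_mul, mul_one]
  congr 1
  have h2 := SymplecticGroup.mem_iff'.1 v.2
  calc (v : Mt)ᵀ * Matrix.J (Fin m) F = (v : Mt)ᵀ * Matrix.J (Fin m) F * ((v : Mt) * v) := by rw [h1, mul_one]
    _ = ((v : Mt)ᵀ * Matrix.J (Fin m) F * v) * v := by noncomm_ring
    _ = Matrix.J (Fin m) F * v := by rw [h2]

theorem sq_of_inv {v : G} (hv : v * v = 1) : (1 + (v : Mt)) * (1 + (v : Mt)) = 0 := by
  have h1 : (v : Mt) * (v : Mt) = 1 := by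
    have := congrArg Subtype.val hv
    exact this
  calc (1 + (v : Mt)) * (1 + (v : Mt)) = (1 + (v : Mt) * v) + ((v : Mt) + v) := by noncomm_ring
    _ = 0 := by rw [h1, add_self_mat, add_self_mat, add_zero]

section Pow

variable {N M : Matrix (Fin m ⊕ Fin m) (Fin m ⊕ Fin m) F} (h : Opp N M) (l : F)

include h

/-- `E² = E`, `E X = X E = X`, `X² = λ X + E` -/
theorem Opp.rel : ∃ E X : Mt, 1 + E + X = (1 + N) * (1 + l • M) ∧ E * E = E ∧ E * X = X ∧ X * E = X ∧
    X * X = l • X + E ∧ N * E = N ∧ N * E * N = 0 ∧ N * X * N = l • N := by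
  have a1 : ∀ A : Mt, N * (N * A) = 0 := fun A => by rw [← mul_assoc, h.NN, zero_mul]
  have a2 : ∀ A : Mt, M * (M * A) = 0 := fun A => by rw [← mul_assoc, h.MM, zero_mul]
  have a3 : N * (M * N) = N := by rw [← mul_assoc, h.NMN]
  have a4 : M * (N * M) = M := by rw [← mul_assoc, h.MNM]
  have a5 : ∀ A : Mt, N * (M * (N * A)) = N * A := fun A => by rw [← mul_assoc, ← mul_assoc, h.NMN]
  have a6 : ∀ A : Mt, M * (N * (M * A)) = M * A := fun A => by rw [← mul_assoc, ← mul_assoc, h.MNM]
  have e2 : ∀ A : Mt, A + A = 0 := add_self_mat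
  refine ⟨N * M + M * N, (N * M + M * N) + N + l • M + l • (N * M), ?_, ?_, ?_, ?_, ?_, ?_, ?_, ?_⟩
  · simp only [mul_add, add_mul, mul_one, one_mul, Matrix.mul_smul]
    have e : 1 + (N * M + M * N) + (N * M + M * N + N + l • M + l • (N * M)) =
        1 + N + (l • M + l • (N * M)) + ((N * M + M * N) + (N * M + M * N)) := by abel
    rw [e, e2, add_zero]
  · simp only [mul_add, add_mul, mul_assoc, a1, a2, a3, a4, a5, a6, h.NN, h.MM, mul_zero, add_zero, zero_add]
  · simp only [mul_add, add_mul, mul_assoc, a1, a2, a3, a4, a5, a6, h.NN, h.MM, mul_zero, add_zero, zero_add,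
      Matrix.mul_smul, smul_zero]
  · simp only [mul_add, add_mul, mul_assoc, a1, a2, a3, a4, a5, a6, h.NN, h.MM, mul_zero, add_zero, zero_add,
      Matrix.smul_mul, smul_zero]
    abel
  · have e : ((N * M + M * N) + N + l • M + l • (N * M)) * ((N * M + M * N) + N + l • M + l • (N * M)) =
        l • ((N * M + M * N) + N + l • M + l • (N * M)) + (N * M + M * N) +
          ((N + l • M + l • (N * M)) + (N + l • M + l • (N * M))) := by
      simp only [mul_add, add_mul, mul_assoc, a1, a2, a3, a4, a5, a6, h.NN, h.MM, mul_zero, add_zero, zero_add,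
        Matrix.mul_smul, Matrix.smul_mul, smul_zero]
      module
    rw [e, e2, add_zero]
  · simp only [mul_add, add_mul, mul_assoc, a1, a2, a3, a4, a5, a6, h.NN, h.MM, mul_zero, add_zero, zero_add]
  · simp only [mul_add, add_mul, mul_assoc, a1, a2, a3, a4, a5, a6, h.NN, h.MM, mul_zero, add_zero, zero_add]
  · simp only [mul_add, add_mul, mul_assoc, a1, a2, a3, a4, a5, a6, h.NN, h.MM, mul_zero, add_zero, zero_add,
      Matrix.mul_smul, Matrix.smul_mul, smul_zero]

/-- an element with the matrix `(1 + N) (1 + λ M)` has odd order -/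
theorem Opp.odd (hN : N ≠ 0) (hl : l ≠ 0) [Finite F] {x : G} (hx : (x : Mt) = (1 + N) * (1 + l • M)) :
    Odd (orderOf x) := by
  have hfin : Finite G := Subtype.finite
  obtain ⟨E, X, h1, hEE, hEX, hXE, hXX, hNE, hNEN, hNXN⟩ := h.rel l
  rw [← h1] at hx
  have e2 : ∀ A : Mt, A + A = 0 := add_self_mat
  have key : ∀ k : ℕ, ∃ a b : F, ((x ^ k : G) : Mt) = 1 + E + (a • E + b • X) := by
    intro k
    induction k with
    | zero =>
      refine ⟨1, 0, ?_⟩
      rw [pow_zero, one_smul, zero_smul, add_zero, add_assoc, e2, add_zero]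
      rfl
    | succ k ih =>
      obtain ⟨a, b, hab⟩ := ih
      refine ⟨b, a + b * l, ?_⟩
      rw [pow_succ]
      change ((x ^ k : G) : Mt) * (x : Mt) = _
      rw [hab, hx]
      have e : (1 + E + (a • E + b • X)) * (1 + E + X) = 1 + E + (b • E + (a + b * l) • X) +
          (((1 + a) • E + (b + 1) • X) + ((1 + a) • E + (b + 1) • X)) := by
        simp only [mul_add, add_mul, mul_one, one_mul, Matrix.mul_smul, Matrix.smul_mul, hEE, hEX, hXE, hXX]
        module
      rw [e, e2, add_zero]
  by_contra hodd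
  rw [Nat.not_odd_iff_even, even_iff_two_dvd] at hodd
  have ho := orderOf_pos x
  obtain ⟨k, hk⟩ := hodd
  have hk0 : k ≠ 0 := by omega
  have hy : orderOf (x ^ k) = 2 := by
    rw [orderOf_pow_of_dvd hk0 ⟨2, by rw [hk, mul_comm]⟩, hk, Nat.mul_div_cancel _ (Nat.pos_of_ne_zero hk0)]
  obtain ⟨a, b, hab⟩ := key k
  have hyy : x ^ k * x ^ k = 1 := by rw [← pow_two, ← hy, pow_orderOf_eq_one]
  have h3 : ((x ^ k : G) : Mt) * ((x ^ k : G) : Mt) = 1 := congrArg Subtype.val hyy
  have h4 : (1 + E + (a • E + b • X)) * (1 + E + (a • E + b • X)) =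
      1 + (1 + a * a + b * b) • E + (b * b * l) • X +
        (((1 + a + a) • E + (b + b + a * b) • X) + ((1 + a + a) • E + (b + b + a * b) • X)) := by
    simp only [mul_add, add_mul, mul_one, one_mul, Matrix.mul_smul, Matrix.smul_mul, hEE, hEX, hXE, hXX]
    module
  rw [hab, h4, e2, add_zero] at h3
  have h5 : (1 + a * a + b * b) • E + (b * b * l) • X = 0 := by
    rw [add_assoc] at h3
    exact add_eq_left.1 h3
  have h6 : N * ((1 + a * a + b * b) • E + (b * b * l) • X) * N = (b * b * l * l) • N := by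
    simp only [mul_add, add_mul, Matrix.mul_smul, Matrix.smul_mul, hNEN, hNXN, smul_zero, zero_add, smul_smul]
  rw [h5, mul_zero, zero_mul] at h6
  have h7 : b = 0 := by
    have h8 := (smul_eq_zero.1 h6.symm).resolve_right hN
    by_contra hb
    exact (mul_ne_zero (mul_ne_zero (mul_ne_zero hb hb) hl) hl) h8
  rw [h7, mul_zero, add_zero, zero_mul, zero_smul, add_zero] at h5
  have h8 : (1 + a * a) • N = 0 := by
    have := congrArg (fun A => N * A) h5
    simp only [Matrix.mul_smul, hNE, mul_zero] at this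
    exact this
  have h9 : 1 + a * a = 0 := (smul_eq_zero.1 h8).resolve_right hN
  have h10 : a = 1 := by
    have h11 : (a + 1) * (a + 1) = 0 := by
      calc (a + 1) * (a + 1) = (1 + a * a) + (a + a) := by ring
        _ = 0 := by rw [h9, CharTwo.add_self_eq_zero, add_zero]
    have h12 := mul_self_eq_zero.1 h11
    rwa [CharTwo.add_eq_zero] at h12
  have h11 : x ^ k = 1 := by
    apply Subtype.ext
    rw [hab, h7, h10, one_smul, zero_smul, add_zero, add_assoc, e2, add_zero]
    rfl
  rw [h11, orderOf_one] at hy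
  norm_num at hy

end Pow

/-- **The homogeneous dihedral group.** -/
theorem exists_inv [Finite F] {v : G} (hvv : v * v = 1) (hv1 : v ≠ 1) {l : F} (hl : l ≠ 0) :
    ∃ x : G, Odd (orderOf x) ∧ v * x * v⁻¹ = x⁻¹ ∧
      (∀ R : Subgroup G, IsPGroup 2 R → R ≤ Subgroup.centralizer {v} ⊓ Subgroup.centralizer {x} →
        (∀ c ∈ Subgroup.centralizer {v} ⊓ Subgroup.centralizer {x}, ∀ r ∈ R, c * r * c⁻¹ ∈ R) →
        ((∀ w : V, f w (v • w) = 0) → R = ⊥) ∧ ∀ r ∈ R, r * r = 1 → ∀ w : V, f w (r • w) = 0) ∧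
      ∀ (s : V → V) (σ : F → F), (∀ u w, s (u + w) = s u + s w) → (∀ (a : F) w, s (a • w) = σ a • s w) →
        Function.Injective s → (∀ w, s (v • w) = v • s w) → (∀ w, s (x • w) = x • s w) → σ l = l := by
  obtain ⟨N, hNdef⟩ : ∃ N : Mt, N = 1 + (v : Mt) := ⟨_, rfl⟩
  have hNv : ∀ w : V, N *ᵥ w = w + v • w := by
    intro w
    rw [hNdef, Matrix.add_mulVec, Matrix.one_mulVec, smul_def]
  have aN : adj N = N := by rw [hNdef]; exact adj_of_inv hvv
  have NN : N * N = 0 := by rw [hNdef]; exact sq_of_inv hvv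
  obtain ⟨M, aM, MM, NMN, MNM⟩ := exists_opp aN NN
  have h : Opp N M := ⟨aN, NN, aM, MM, NMN, MNM⟩
  have hN0 : N ≠ 0 := by
    intro h0
    apply hv1
    apply ext_smul
    intro w
    have h1 := hNv w
    rw [h0, Matrix.zero_mulVec] at h1
    rw [one_smul]
    have h2 : w + v • w = w + w := by rw [← h1, add_self_vec]
    exact add_left_cancel h2
  have alM : adj (l • M) = l • M := by rw [adj_smul, aM]
  have llM : (l • M) * (l • M) = 0 := by rw [Matrix.smul_mul, Matrix.mul_smul, MM, smul_zero, smul_zero]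
  obtain ⟨v', hv'⟩ : ∃ v' : G, (v' : Mt) = 1 + l • M := ⟨⟨_, one_add_mem alM llM⟩, rfl⟩
  have hv'w : ∀ w : V, v' • w = w + l • (M *ᵥ w) := by
    intro w
    rw [smul_def, hv', Matrix.add_mulVec, Matrix.one_mulVec, Matrix.smul_mulVec]
  have hv'v' : v' * v' = 1 := by
    apply Subtype.ext
    change (v' : Mt) * (v' : Mt) = 1
    rw [hv']
    calc (1 + l • M) * (1 + l • M) = 1 + (l • M + l • M) + (l • M) * (l • M) := by
          rw [mul_add, add_mul, add_mul, one_mul, mul_one, one_mul]
          abel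
      _ = 1 := by rw [add_self_mat, llM, add_zero, add_zero]
  have hvN : (v : Mt) = 1 + N := by
    rw [hNdef, ← add_assoc, add_self_mat, zero_add]
  have hvi : v⁻¹ = v := by rw [inv_eq_iff_mul_eq_one]; exact hvv
  have hv'i : v'⁻¹ = v' := by rw [inv_eq_iff_mul_eq_one]; exact hv'v'
  refine ⟨v * v', ?_, ?_, ?_, ?_⟩
  · exact h.odd l hN0 hl (by
      change (v : Mt) * (v' : Mt) = _
      rw [hvN, hv'])
  · rw [_root_.mul_inv_rev, hv'i, hvi, ← mul_assoc, hvv, one_mul]
  · intro R hR hRC hn
    have hC : ∀ c : G, c ∈ (Subgroup.centralizer {v} ⊓ Subgroup.centralizer {v * v'} : Subgroup G) ↔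
        (∀ w : V, c • (N *ᵥ w) = N *ᵥ (c • w)) ∧ ∀ w : V, c • (M *ᵥ w) = M *ᵥ (c • w) := by
      intro c
      rw [Subgroup.mem_inf, Subgroup.mem_centralizer_singleton_iff, Subgroup.mem_centralizer_singleton_iff]
      constructor
      · rintro ⟨h1, h2⟩
        have h3 : c * v' = v' * c := by
          have h4 : v * (c * v') = v * (v' * c) := by
            calc v * (c * v') = (v * c) * v' := by rw [mul_assoc]
              _ = c * (v * v') := by rw [← h1, mul_assoc]
              _ = v * (v' * c) := by rw [h2, mul_assoc]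
          exact mul_left_cancel h4
        constructor
        · intro w
          rw [hNv, hNv, smul_add', ← mul_smul, ← mul_smul, h1]
        · intro w
          have h4 : c • (v' • w) = v' • (c • w) := by rw [← mul_smul, ← mul_smul, h3]
          rw [hv'w, hv'w, smul_add', smul_smul'] at h4
          have h5 := add_left_cancel h4
          have h6 : l • (c • (M *ᵥ w) - M *ᵥ (c • w)) = 0 := by rw [smul_sub, h5, sub_self]
          exact sub_eq_zero.1 ((smul_eq_zero.1 h6).resolve_left hl)
      · rintro ⟨h1, h2⟩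
        have h3 : c * v = v * c := by
          apply ext_smul
          intro w
          have h4 := h1 w
          rw [hNv, hNv, smul_add'] at h4
          rw [mul_smul, mul_smul]
          exact add_left_cancel h4
        have h4 : c * v' = v' * c := by
          apply ext_smul
          intro w
          rw [mul_smul, mul_smul, hv'w, hv'w, smul_add', smul_smul', h2]
        refine ⟨h3, ?_⟩
        rw [← mul_assoc, h3, mul_assoc, h4, mul_assoc]
    constructor
    · intro ha
      rw [Subgroup.eq_bot_iff_forall]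
      intro r hr
      refine h.eq_one_of_alt hR hn hC hRC (fun w => ?_) hr
      rw [hNv, sympForm_add_right, sympForm_self, zero_add, ha]
    · intro r hr hrr w
      exact h.alt_of_mem hR hn hC hRC hr hrr w
  · intro s σ hadd hsm hinj hsv hsx
    have hs0 : s 0 = 0 := by
      have := hadd 0 0
      rw [add_zero] at this
      exact (add_eq_left.1 this.symm)
    have hsv' : ∀ w, s (v' • w) = v' • s w := by
      intro w
      have h1 := hsx w
      rw [mul_smul, mul_smul, hsv] at h1
      have h2 := congrArg (fun u => v • u) h1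
      simp only [← mul_smul, ← mul_assoc, hvv, one_mul, one_smul] at h2
      exact h2
    have hsN : ∀ w, s (N *ᵥ w) = N *ᵥ s w := by
      intro w
      rw [hNv, hNv, hadd, hsv]
    have hsM : ∀ w, s (l • (M *ᵥ w)) = l • (M *ᵥ s w) := by
      intro w
      have h1 := hsv' w
      rw [hv'w, hv'w, hadd] at h1
      exact add_left_cancel h1
    obtain ⟨w, hw⟩ : ∃ w : V, N *ᵥ w ≠ 0 := by
      by_contra hcon
      push Not at hcon
      apply hN0
      rw [← Matrix.mulVec_injective.eq_iff]
      funext w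
      rw [hcon w, Matrix.zero_mulVec]
    have h1 : s (l • (N *ᵥ (M *ᵥ (N *ᵥ w)))) = l • (N *ᵥ (M *ᵥ (N *ᵥ s w))) := by
      rw [← Matrix.mulVec_smul, hsN, hsM, Matrix.mulVec_smul, hsN]
    rw [h.NMN', h.NMN', hsm, hsN] at h1
    have h2 : (σ l - l) • (N *ᵥ s w) = 0 := by rw [sub_smul, h1, sub_self]
    have h3 : N *ᵥ s w ≠ 0 := by
      rw [← hsN]
      intro h4
      rw [← hs0] at h4
      exact hw (hinj h4)
    exact sub_eq_zero.1 ((smul_eq_zero.1 h2).resolve_right h3)

end Cfsg.Agent.H736.SK
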