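import Cfsg.Agent.H736.SK.PspDih
import Cfsg.Agent.ClassicalGeometry.SympAutTwo

/-!
# S3010, `PSp_4(q)`, `q` even: involutions (helper736)

* `alt_conj` : an involution `A ≠ 1` of `Sp_4(F)` with `(w, A w) = 0` for all `w` is conjugate to `S 1`;
* `transv_of_fix` : an involution fixing a hyperbolic plane pointwise is a transvection;
* `sp4_key` : an involution `A` with `(w, A w) ≠ 0` for some `w` inverts an element `x` of odd order such that all
  involutions commuting with `A` and `x` are transvections.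
-/

set_option autoImplicit false
set_option linter.unusedSectionVars false
set_option linter.unusedSimpArgs false
set_option linter.unusedVariables false

namespace Cfsg.Agent.H736.SK

open Matrix Cfsg Cfsg.Agent.ClassicalGeometry.SympBasic Cfsg.Agent.ClassicalGeometry.SympSiegel
open Cfsg.Agent.ClassicalGeometry

section Two

variable {F : Type*} [Field F] [CharP F 2]

local notation "V" => (Fin 2 ⊕ Fin 2 → F)
local notation "G" => Matrix.symplecticGroup (Fin 2) F
local notation "f" => sympForm 2 F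
local notation "Mt" => Matrix (Fin 2 ⊕ Fin 2) (Fin 2 ⊕ Fin 2) F

theorem form_four (u v : V) : f u v = u (.inr 0) * v (.inl 0) + u (.inl 0) * v (.inr 0) +
    (u (.inr 1) * v (.inl 1) + u (.inl 1) * v (.inr 1)) := by
  rw [sympForm_eq_sum, Fin.sum_univ_two, CharTwo.sub_eq_add, CharTwo.sub_eq_add]

theorem form_inv {A : G} (hA : A * A = 1) (u w : V) : f (A • u) w = f u (A • w) := by
  have h : A⁻¹ = A := by rw [inv_eq_iff_mul_eq_one]; exact hA
  rw [form_smul_left, h]

/-- **normal form of the involutions with `(w, A w) = 0`** -/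
theorem alt_conj {A : G} (hA : A * A = 1) (hA1 : A ≠ 1) (halt : ∀ w : V, f w (A • w) = 0) :
    ∃ g : G, A = g * Sp4GraphAut.S 1 * g⁻¹ := by
  obtain ⟨u, hu⟩ : ∃ u : V, A • u ≠ u := by
    by_contra hcon
    push Not at hcon
    exact hA1 (ext_smul fun w => by rw [hcon w, one_smul])
  have hAA : ∀ w : V, A • (A • w) = w := fun w => by rw [← mul_smul, hA, one_smul]
  have e2 : ∀ w : V, w + w = 0 := add_self_vec
  obtain ⟨p, hp⟩ : ∃ p : V, p = u + A • u := ⟨_, rfl⟩
  have hp0 : p ≠ 0 := by
    intro h0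
    apply hu
    have : A • u = (u + A • u) + u := by
      calc A • u = (u + u) + A • u := by rw [e2, zero_add]
        _ = _ := by abel
    rw [this, ← hp, h0, zero_add]
  obtain ⟨u₀, hu₀⟩ := exists_form_eq_one hp0
  have hNN : ∀ w : V, (w + A • w) + A • (w + A • w) = 0 := by
    intro w
    rw [smul_add', hAA]
    calc (w + A • w) + (A • w + w) = (w + w) + (A • w + A • w) := by abel
      _ = 0 := by rw [e2, e2, zero_add]
  have hff : ∀ w z : V, f (w + A • w) z = f w (z + A • z) := by
    intro w z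
    rw [sympForm_add_left, sympForm_add_right, form_inv hA]
  have hwN : ∀ w : V, f w (w + A • w) = 0 := by
    intro w
    rw [sympForm_add_right, sympForm_self, halt, add_zero]
  obtain ⟨q, hq⟩ : ∃ q : V, q = u₀ + A • u₀ := ⟨_, rfl⟩
  have hNq : q + A • q = 0 := by rw [hq]; exact hNN _
  have hNp : p + A • p = 0 := by rw [hp]; exact hNN _
  have huq : f u q = 1 := by rw [hq, ← hff, ← hp, hu₀]
  have huq' : f q u = 1 := by rw [form_comm, huq]
  obtain ⟨c, hc⟩ : ∃ c : F, c = f u₀ u := ⟨_, rfl⟩
  obtain ⟨u', hu'⟩ : ∃ u' : V, u' = u₀ + c • q := ⟨_, rfl⟩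
  have hNu' : u' + A • u' = q := by
    rw [hu', smul_add', smul_smul']
    calc u₀ + c • q + (A • u₀ + c • (A • q)) = (u₀ + A • u₀) + c • (q + A • q) := by
          rw [smul_add]
          abel
      _ = q := by rw [hNq, smul_zero, add_zero, hq]
  have h_pp : f p p = 0 := sympForm_self _
  have h_pq : f p q = 0 := by rw [hp, hff, hNq, sympForm_zero_right]
  have h_pu : f p u = 0 := by rw [form_comm, hp]; exact hwN u
  have h_u'u : f u' u = 0 := by
    rw [hu', sympForm_add_left, sympForm_smul_left, huq', mul_one, ← hc, CharTwo.add_self_eq_zero]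
  have h_pu' : f p u' = 1 := by
    rw [hu', sympForm_add_right, sympForm_smul_right, hu₀, h_pq, mul_zero, add_zero]
  have h_qu' : f q u' = 0 := by
    have h1 := hwN u'
    rw [hNu', form_comm] at h1
    exact h1
  have hT : ∃ T : V →ₗ[F] V, ∀ x, T x = x (.inl 0) • p + x (.inl 1) • q + x (.inr 0) • u' + x (.inr 1) • u :=
    ⟨{ toFun := fun x => x (.inl 0) • p + x (.inl 1) • q + x (.inr 0) • u' + x (.inr 1) • u
       map_add' := fun x y => by
        simp only [Pi.add_apply]
        module
       map_smul' := fun a x => by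
        simp only [Pi.smul_apply, smul_eq_mul, RingHom.id_apply]
        module }, fun x => rfl⟩
  obtain ⟨T, hT⟩ := hT
  have hiso : ∀ x y, f (T x) (T y) = f x y := by
    intro x y
    rw [hT, hT, form_four x y]
    simp only [sympForm_add_left, sympForm_add_right, sympForm_smul_left, sympForm_smul_right]
    rw [sympForm_self, sympForm_self, sympForm_self, sympForm_self, h_pq, h_pu, h_pu', form_comm q p, h_pq, huq', h_qu',
      form_comm u' p, h_pu', form_comm u' q, h_qu', h_u'u, form_comm u p, h_pu, huq, form_comm u u', h_u'u]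
    ring
  refine ⟨ofIso T hiso, ?_⟩
  rw [eq_mul_inv_iff_mul_eq]
  apply ext_smul
  intro x
  rw [mul_smul, mul_smul, ofIso_smul, ofIso_smul, smul_def (Sp4GraphAut.S 1), Sp4GraphAut.S_mulVec, map_add, map_add,
    map_smul, map_smul]
  have h1 : T (Sp4GraphAut.e1 F) = p := by
    rw [hT]
    simp [Sp4GraphAut.e1]
  have h2 : T (Sp4GraphAut.e2 F) = q := by
    rw [hT]
    simp [Sp4GraphAut.e2]
  rw [h1, h2, hT]
  have e3 : A • p = p := by
    calc A • p = (p + p) + A • p := by rw [e2, zero_add]
      _ = p + (p + A • p) := by abel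
      _ = p := by rw [hNp, add_zero]
  have e4 : A • q = q := by
    calc A • q = (q + q) + A • q := by rw [e2, zero_add]
      _ = q + (q + A • q) := by abel
      _ = q := by rw [hNq, add_zero]
  have e5 : A • u' = u' + q := by
    calc A • u' = (u' + u') + A • u' := by rw [e2, zero_add]
      _ = u' + (u' + A • u') := by abel
      _ = u' + q := by rw [hNu']
  have e6 : A • u = u + p := by
    calc A • u = (u + u) + A • u := by rw [e2, zero_add]
      _ = u + (u + A • u) := by abel
      _ = u + p := by rw [← hp]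
  rw [smul_add', smul_add', smul_add', smul_smul', smul_smul', smul_smul', smul_smul', e3, e4, e5, e6, one_mul, one_mul]
  module

/-- vectors of the orthogonal complement of a hyperbolic plane -/
theorem plane {a w b z : V} (haw : f a w ≠ 0) (hba : f b a = 0) (hbw : f b w = 0) (hza : f z a = 0) (hzw : f z w = 0)
    (hzb : f z b = 0) (hb : b ≠ 0) : ∃ k : F, z = k • b := by
  have h1 : f a ((f a w)⁻¹ • w) = 1 := by rw [sympForm_smul_right, inv_mul_cancel₀ haw]
  have h2 : f (Pi.single (Sum.inr 0) 1) (Pi.single (Sum.inl 0) 1) = 1 := by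
    rw [sympForm_single_inr_left, Pi.single_eq_same]
  obtain ⟨g, -, hg1, hg2⟩ := exists_transvGroup_hyperbolic h1 h2
  have hg1' : g • a = Pi.single (Sum.inr 0) 1 := hg1
  have hg2' : g • w = (f a w) • Pi.single (Sum.inl 0) (1 : F) := by
    have h3 : g • ((f a w)⁻¹ • w) = Pi.single (Sum.inl 0) 1 := hg2
    rw [← h3, smul_smul', smul_smul, mul_inv_cancel₀ haw, one_smul]
  have key : ∀ y : V, f y a = 0 → f y w = 0 → (g • y) (.inl 0) = 0 ∧ (g • y) (.inr 0) = 0 := by
    intro y h3 h4
    rw [← form_smul g, hg1', form_comm, sympForm_single_inr_left] at h3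
    rw [← form_smul g, hg2', form_comm, sympForm_smul_left, sympForm_single_inl_left, CharTwo.neg_eq] at h4
    exact ⟨h3, (mul_eq_zero.1 h4).resolve_left haw⟩
  obtain ⟨b1, b2⟩ := key b hba hbw
  obtain ⟨z1, z2⟩ := key z hza hzw
  have hzb' : (g • z) (.inr 1) * (g • b) (.inl 1) + (g • z) (.inl 1) * (g • b) (.inr 1) = 0 := by
    rw [← form_smul g, form_four, z1, z2, zero_mul, zero_mul, zero_add, zero_add] at hzb
    exact hzb
  have hzb'' : (g • z) (.inr 1) * (g • b) (.inl 1) = (g • z) (.inl 1) * (g • b) (.inr 1) := by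
    rwa [CharTwo.add_eq_zero] at hzb'
  have hgb : g • b ≠ 0 := smul_ne_zero' g hb
  suffices h : ∃ k : F, g • z = k • (g • b) by
    obtain ⟨k, hk⟩ := h
    refine ⟨k, ?_⟩
    rw [← smul_smul'] at hk
    have := congrArg (fun y => g⁻¹ • y) hk
    simpa [inv_smul_smul] using this
  by_cases hb3 : (g • b) (.inl 1) = 0
  · have hb4 : (g • b) (.inr 1) ≠ 0 := by
      intro hb4
      apply hgb
      ext i
      rcases i with i | i <;> fin_cases i
      · exact b1
      · exact hb3
      · exact b2
      · exact hb4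
    refine ⟨(g • z) (.inr 1) * ((g • b) (.inr 1))⁻¹, ?_⟩
    rw [hb3, mul_zero] at hzb''
    have hz3 : (g • z) (.inl 1) = 0 := (mul_eq_zero.1 hzb''.symm).resolve_right hb4
    ext i
    rcases i with i | i <;> fin_cases i
    · change (g • z) (.inl 0) = _ * (g • b) (.inl 0)
      rw [z1, b1, mul_zero]
    · change (g • z) (.inl 1) = _ * (g • b) (.inl 1)
      rw [hz3, hb3, mul_zero]
    · change (g • z) (.inr 0) = _ * (g • b) (.inr 0)
      rw [z2, b2, mul_zero]
    · change (g • z) (.inr 1) = _ * (g • b) (.inr 1)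
      rw [mul_assoc, inv_mul_cancel₀ hb4, mul_one]
  · refine ⟨(g • z) (.inl 1) * ((g • b) (.inl 1))⁻¹, ?_⟩
    ext i
    rcases i with i | i <;> fin_cases i
    · change (g • z) (.inl 0) = _ * (g • b) (.inl 0)
      rw [z1, b1, mul_zero]
    · change (g • z) (.inl 1) = _ * (g • b) (.inl 1)
      rw [mul_assoc, inv_mul_cancel₀ hb3, mul_one]
    · change (g • z) (.inr 0) = _ * (g • b) (.inr 0)
      rw [z2, b2, mul_zero]
    · change (g • z) (.inr 1) = _ * (g • b) (.inr 1)
      have : (g • z) (.inr 1) = ((g • z) (.inr 1) * (g • b) (.inl 1)) * ((g • b) (.inl 1))⁻¹ := by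
        rw [mul_assoc, mul_inv_cancel₀ hb3, mul_one]
      rw [this, hzb'']
      ring

/-- **(K1)** an involution fixing a hyperbolic plane pointwise is a transvection -/
theorem transv_of_fix {B : G} (hB : B * B = 1) (hB1 : B ≠ 1) {a w : V} (haw : f a w ≠ 0) (ha : B • a = a)
    (hw : B • w = w) : ∃ b : V, b ≠ 0 ∧ ∃ k : F, k ≠ 0 ∧ B = transv b k := by
  have e2 : ∀ w : V, w + w = 0 := add_self_vec
  have hBB : ∀ w : V, B • (B • w) = w := fun w => by rw [← mul_smul, hB, one_smul]
  have hNN : ∀ w : V, (w + B • w) + B • (w + B • w) = 0 := by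
    intro w
    rw [smul_add', hBB]
    calc (w + B • w) + (B • w + w) = (w + w) + (B • w + B • w) := by abel
      _ = 0 := by rw [e2, e2, zero_add]
  have hff : ∀ w z : V, f (w + B • w) z = f w (z + B • z) := by
    intro w z
    rw [sympForm_add_left, sympForm_add_right, form_inv hB]
  obtain ⟨y, hy⟩ : ∃ y : V, B • y ≠ y := by
    by_contra hcon
    push Not at hcon
    exact hB1 (ext_smul fun w => by rw [hcon w, one_smul])
  obtain ⟨b, hb⟩ : ∃ b : V, b = y + B • y := ⟨_, rfl⟩
  have hb0 : b ≠ 0 := by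
    intro h0
    apply hy
    calc B • y = (y + y) + B • y := by rw [e2, zero_add]
      _ = y + (y + B • y) := by abel
      _ = y := by rw [← hb, h0, add_zero]
  have hNa : a + B • a = 0 := by rw [ha, e2]
  have hNw : w + B • w = 0 := by rw [hw, e2]
  have hza : ∀ z : V, f (z + B • z) a = 0 := fun z => by rw [hff, hNa, sympForm_zero_right]
  have hzw : ∀ z : V, f (z + B • z) w = 0 := fun z => by rw [hff, hNw, sympForm_zero_right]
  have hzb : ∀ z : V, f (z + B • z) b = 0 := fun z => by rw [hff, hb, hNN, sympForm_zero_right]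
  have hba : f b a = 0 := by rw [hb]; exact hza y
  have hbw : f b w = 0 := by rw [hb]; exact hzw y
  have hNb : b + B • b = 0 := by rw [hb]; exact hNN y
  -- every image is a multiple of `b`
  have hmul : ∀ z : V, ∃ k : F, z + B • z = k • b := fun z =>
    plane haw hba hbw (hza z) (hzw z) (hzb z) hb0
  -- `f(y, b) ≠ 0`
  have hby : f b y ≠ 0 := by
    intro h0
    -- the component of `y` in the plane complement
    obtain ⟨y', hy'⟩ : ∃ y' : V, y' = y + (f y w * (f a w)⁻¹) • a + (f y a * (f a w)⁻¹) • w := ⟨_, rfl⟩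
    have hwa : f w a = f a w := form_comm _ _
    have h1 : f y' a = 0 := by
      rw [hy', sympForm_add_left, sympForm_add_left, sympForm_smul_left, sympForm_smul_left, sympForm_self, mul_zero,
        add_zero, hwa, mul_assoc, inv_mul_cancel₀ haw, mul_one, CharTwo.add_self_eq_zero]
    have h2 : f y' w = 0 := by
      rw [hy', sympForm_add_left, sympForm_add_left, sympForm_smul_left, sympForm_smul_left, sympForm_self, mul_zero,
        add_zero, mul_assoc, inv_mul_cancel₀ haw, mul_one, CharTwo.add_self_eq_zero]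
    have h3 : f y' b = 0 := by
      rw [hy', sympForm_add_left, sympForm_add_left, sympForm_smul_left, sympForm_smul_left, form_comm a b, hba,
        form_comm w b, hbw, mul_zero, mul_zero, add_zero, add_zero, form_comm y b]
      exact h0
    obtain ⟨k, hk⟩ := plane haw hba hbw h1 h2 h3 hb0
    have h4 : y' + B • y' = b := by
      rw [hy', smul_add', smul_add', smul_smul', smul_smul', ha, hw]
      calc y + (f y w * (f a w)⁻¹) • a + (f y a * (f a w)⁻¹) • w +
            (B • y + (f y w * (f a w)⁻¹) • a + (f y a * (f a w)⁻¹) • w) =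
          (y + B • y) + (((f y w * (f a w)⁻¹) • a + (f y a * (f a w)⁻¹) • w) +
            ((f y w * (f a w)⁻¹) • a + (f y a * (f a w)⁻¹) • w)) := by abel
        _ = b := by rw [e2, add_zero, hb]
    apply hb0
    rw [← h4, hk, smul_smul', ← smul_add, hNb, smul_zero]
  refine ⟨b, hb0, (f b y)⁻¹, inv_ne_zero hby, ?_⟩
  apply ext_smul
  intro z
  obtain ⟨k, hk⟩ := hmul z
  rw [transv_smul]
  have h1 : k * f b y = f z b := by
    rw [← sympForm_smul_left, ← hk, hff, ← hb]
  have h2 : k = (f b y)⁻¹ * f z b := by rw [← h1]; field_simp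
  rw [← h2, ← hk, ← add_assoc, e2, zero_add]

/-- **(C)** -/
theorem sp4_key [Finite F] {A : G} (hA : A * A = 1) {w₀ : V} (hw₀ : f w₀ (A • w₀) ≠ 0) {l : F} (hl : l ≠ 0) :
    ∃ x : G, Odd (orderOf x) ∧ A * x * A⁻¹ = x⁻¹ ∧
      (∀ B : G, B * B = 1 → B ≠ 1 → B * A = A * B → B * x = x * B →
        ∃ b : V, b ≠ 0 ∧ ∃ k : F, k ≠ 0 ∧ B = transv b k) ∧
      (∃ A' : G, (A' = 1 → ∃ b : V, b ≠ 0 ∧ ∃ k : F, k ≠ 0 ∧ A = transv b k) ∧ A' * A' = 1 ∧ A' * A = A * A' ∧
        A' * x = x * A') ∧
      ∀ (s : V → V) (σ : F → F), (∀ u w, s (u + w) = s u + s w) → (∀ (a : F) w, s (a • w) = σ a • s w) →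
        Function.Injective s → (∀ w, s (A • w) = A • s w) → (∀ w, s (x • w) = x • s w) → σ l = l := by
  have e2 : ∀ w : V, w + w = 0 := add_self_vec
  have hAA : ∀ w : V, A • (A • w) = w := fun w => by rw [← mul_smul, hA, one_smul]
  obtain ⟨a, ha⟩ : ∃ a : V, a = w₀ + A • w₀ := ⟨_, rfl⟩
  obtain ⟨c, hc⟩ : ∃ c : F, c = f w₀ a := ⟨_, rfl⟩
  have hc0 : c ≠ 0 := by rw [hc, ha, sympForm_add_right, sympForm_self, zero_add]; exact hw₀
  have haw : f a w₀ = c := by rw [hc, form_comm]
  have hAw : A • w₀ = w₀ + a := by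
    rw [ha, ← add_assoc, e2, zero_add]
  have hAa : A • a = a := by
    rw [ha, smul_add', hAA, add_comm]
  have ha0 : a ≠ 0 := by
    intro h0
    rw [h0, sympForm_zero_left] at haw
    exact hc0 haw.symm
  have hw0 : w₀ ≠ 0 := by
    intro h0
    rw [h0, sympForm_zero_right] at haw
    exact hc0 haw.symm
  obtain ⟨t, ht⟩ : ∃ t : G, t = transv a c⁻¹ := ⟨_, rfl⟩
  obtain ⟨t', ht'⟩ : ∃ t' : G, t' = transv w₀ (l * c⁻¹) := ⟨_, rfl⟩
  have htw : ∀ y : V, t • y = y + (c⁻¹ * f y a) • a := fun y => by rw [ht, transv_smul]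
  have ht'w : ∀ y : V, t' • y = y + (l * c⁻¹ * f y w₀) • w₀ := fun y => by rw [ht', transv_smul]
  have htt : t * t = 1 := by rw [ht, transv_mul, CharTwo.add_self_eq_zero, transv_zero]
  have ht't' : t' * t' = 1 := by rw [ht', transv_mul, CharTwo.add_self_eq_zero, transv_zero]
  have hti : t⁻¹ = t := by rw [inv_eq_iff_mul_eq_one]; exact htt
  have ht'i : t'⁻¹ = t' := by rw [inv_eq_iff_mul_eq_one]; exact ht't'
  -- `x = t t'`
  have hx1 : ∀ y : V, y + (t * t') • y = (c⁻¹ * (f y a + l * f y w₀)) • a + (l * c⁻¹ * f y w₀) • w₀ := by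
    intro y
    rw [mul_smul, ht'w, htw, sympForm_add_left, sympForm_smul_left, ← hc]
    calc y + (y + (l * c⁻¹ * f y w₀) • w₀ + (c⁻¹ * (f y a + l * c⁻¹ * f y w₀ * c)) • a) =
        (y + y) + ((c⁻¹ * (f y a + (c * c⁻¹) * (l * f y w₀))) • a + (l * c⁻¹ * f y w₀) • w₀) := by
          module
      _ = _ := by rw [e2, zero_add, mul_inv_cancel₀ hc0, one_mul]
  have hx2 : a = w₀ + (t * t') • w₀ := by
    rw [hx1, sympForm_self, mul_zero, mul_zero, add_zero, zero_smul, add_zero, ← hc, inv_mul_cancel₀ hc0, one_smul]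
  have hx3 : a + (t * t') • a = l • a + l • w₀ := by
    rw [hx1, sympForm_self, zero_add, haw]
    congr 2
    · field_simp
    · field_simp
  have hx4 : l • w₀ = (a + (t * t') • a) + l • a := by
    rw [hx3]
    calc l • w₀ = (l • a + l • a) + l • w₀ := by rw [e2, zero_add]
      _ = _ := by abel
  -- the semilinear computation
  have key : ∀ (s : V → V) (σ : F → F), (∀ u w, s (u + w) = s u + s w) → (∀ (a : F) w, s (a • w) = σ a • s w) →
      (∀ w, s (A • w) = A • s w) → (∀ w, s ((t * t') • w) = (t * t') • s w) →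
      ∃ α : F, s a = α • a ∧ σ l • s w₀ = (α * (l + σ l)) • a + (α * l) • w₀ := by
    intro s σ hadd hsm hsA hsx
    have h1 : s a = s w₀ + (t * t') • s w₀ := by
      conv_lhs => rw [hx2]
      rw [hadd, hsx]
    obtain ⟨α, β, hαβ⟩ : ∃ α β : F, s a = α • a + β • w₀ := ⟨_, _, h1.trans (hx1 _)⟩
    have hβ : β = 0 := by
      have h2 : A • s a = s a := by rw [← hsA, hAa]
      rw [hαβ, smul_add', smul_smul', smul_smul', hAa, hAw] at h2
      have h3 : β • a = 0 := by
        have h4 : (α • a + β • w₀) + β • a = (α • a + β • w₀) + 0 := by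
          rw [add_zero]
          calc (α • a + β • w₀) + β • a = α • a + β • (w₀ + a) := by module
            _ = _ := h2
        exact add_left_cancel h4
      exact (smul_eq_zero.1 h3).resolve_right ha0
    rw [hβ, zero_smul, add_zero] at hαβ
    refine ⟨α, hαβ, ?_⟩
    have h5 : s (l • w₀) = (s a + (t * t') • s a) + s (l • a) := by
      rw [hx4, hadd, hadd, hsx]
    rw [hsm, hsm, hαβ, smul_smul', ← smul_add, hx3] at h5
    rw [h5]
    module
  have hcomm : ∀ B : G, B * A = A * B → B * (t * t') = (t * t') * B → B * B = 1 → B • a = a ∧ B • w₀ = w₀ := by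
    intro B hBA hBx hBB
    obtain ⟨α, h1, h2⟩ := key (fun y => B • y) id (fun u w => smul_add' B u w) (fun a w => smul_smul' B a w)
      (fun w => by rw [← mul_smul, hBA, mul_smul]) (fun w => by rw [← mul_smul, hBx, mul_smul])
    simp only [id] at h1 h2
    rw [CharTwo.add_self_eq_zero, mul_zero, zero_smul, zero_add, mul_comm α l, mul_smul] at h2
    have h3 : B • w₀ = α • w₀ := by
      have h4 : l • (B • w₀ - α • w₀) = 0 := by rw [smul_sub, h2, sub_self]
      exact sub_eq_zero.1 ((smul_eq_zero.1 h4).resolve_left hl)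
    have h4 : α = 1 := by
      have h5 : B • (B • a) = a := by rw [← mul_smul, hBB, one_smul]
      rw [h1, smul_smul', h1, smul_smul] at h5
      have h6 : (α * α - 1) • a = 0 := by rw [sub_smul, h5, one_smul, sub_self]
      have h7 := (smul_eq_zero.1 h6).resolve_right ha0
      have h8 : (α - 1) * (α - 1) = 0 := by
        calc (α - 1) * (α - 1) = (α * α - 1) - ((α + α) - (1 + 1)) := by ring
          _ = 0 := by rw [h7, CharTwo.add_self_eq_zero, CharTwo.add_self_eq_zero]; simp
      exact sub_eq_zero.1 (mul_self_eq_zero.1 h8)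
    rw [h4, one_smul] at h1 h3
    exact ⟨h1, h3⟩
  have hAt : A * t = t * A := by
    have := conj_transv A a c⁻¹
    rw [hAa, ← ht, mul_inv_eq_iff_eq_mul] at this
    exact this
  have hfix1 : (t * A) • w₀ = w₀ := by
    rw [mul_smul, hAw, smul_add', htw, htw, sympForm_self, mul_zero, zero_smul, add_zero, ← hc, inv_mul_cancel₀ hc0,
      one_smul, add_assoc, e2, add_zero]
  have hfix2 : (t * A) • a = a := by
    rw [mul_smul, hAa, htw, sympForm_self, mul_zero, zero_smul, add_zero]
  have hAt' : (t * A) * t' = t' * (t * A) := by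
    have := conj_transv (t * A) w₀ (l * c⁻¹)
    rw [hfix1, ← ht', mul_inv_eq_iff_eq_mul] at this
    exact this
  have hAA' : (t * A) * (t * A) = 1 := by
    calc (t * A) * (t * A) = t * (A * t) * A := by group
      _ = (t * t) * (A * A) := by rw [hAt]; group
      _ = 1 := by rw [htt, hA, one_mul]
  refine ⟨t * t', ?_, ?_, ?_, ⟨t * A, ?_, hAA', ?_, ?_⟩, ?_⟩
  · -- odd order
    obtain ⟨M, hM⟩ : ∃ M : Mt, M = 1 + ((transv w₀ c⁻¹ : G) : Mt) := ⟨_, rfl⟩
    obtain ⟨N, hN⟩ : ∃ N : Mt, N = 1 + (t : Mt) := ⟨_, rfl⟩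
    have hMw : ∀ y : V, M *ᵥ y = (c⁻¹ * f y w₀) • w₀ := by
      intro y
      rw [hM, Matrix.add_mulVec, Matrix.one_mulVec, ← smul_def, transv_smul, ← add_assoc, e2, zero_add]
    have hNw : ∀ y : V, N *ᵥ y = (c⁻¹ * f y a) • a := by
      intro y
      rw [hN, Matrix.add_mulVec, Matrix.one_mulVec, ← smul_def, htw, ← add_assoc, e2, zero_add]
    have hOpp : Opp N M := by
      refine ⟨?_, ?_, ?_, ?_, ?_, ?_⟩
      · rw [hN]; exact adj_of_inv htt
      · rw [hN]; exact sq_of_inv htt
      · rw [hM]; exact adj_of_inv (by rw [transv_mul, CharTwo.add_self_eq_zero, transv_zero])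
      · rw [hM]; exact sq_of_inv (by rw [transv_mul, CharTwo.add_self_eq_zero, transv_zero])
      · rw [← Matrix.mulVec_injective.eq_iff]
        funext y
        rw [← Matrix.mulVec_mulVec, ← Matrix.mulVec_mulVec, hNw y, hMw, hNw, sympForm_smul_left,
          sympForm_smul_left, haw, ← hc]
        congr 1
        field_simp
      · rw [← Matrix.mulVec_injective.eq_iff]
        funext y
        rw [← Matrix.mulVec_mulVec, ← Matrix.mulVec_mulVec, hMw y, hNw, hMw, sympForm_smul_left,
          sympForm_smul_left, haw, ← hc]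
        congr 1
        field_simp
    refine hOpp.odd l ?_ hl ?_
    · intro h0
      have := hNw w₀
      rw [h0, Matrix.zero_mulVec, ← hc, inv_mul_cancel₀ hc0, one_smul] at this
      exact ha0 this.symm
    · change (t : Mt) * (t' : Mt) = _
      congr 1
      · rw [hN, ← add_assoc, add_self_mat, zero_add]
      · rw [← Matrix.mulVec_injective.eq_iff]
        funext y
        rw [Matrix.add_mulVec, Matrix.one_mulVec, Matrix.smul_mulVec, hMw, ← smul_def, ht'w, smul_smul]
        congr 2
        ring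
  · -- inverted
    rw [_root_.mul_inv_rev, hti, ht'i, mul_inv_eq_iff_eq_mul]
    calc A * (t * t') = (A * t) * t' := by rw [mul_assoc]
      _ = t' * (t * A) := by rw [hAt, hAt']
      _ = t' * t * A := by rw [mul_assoc]
  · intro B hB hB1 hBA hBx
    obtain ⟨h1, h2⟩ := hcomm B hBA hBx hB
    exact transv_of_fix hB hB1 (by rw [haw]; exact hc0) h1 h2
  · intro h1
    refine ⟨a, ha0, c⁻¹, inv_ne_zero hc0, ?_⟩
    rw [← ht]
    calc A = t * (t * A) := by rw [← mul_assoc, htt, one_mul]
      _ = t := by rw [h1, mul_one]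
  · rw [mul_assoc, hA, ← mul_assoc, hAt, mul_assoc, hA]
  · calc t * A * (t * t') = t * (A * t) * t' := by group
      _ = t * (t * A * t') := by rw [hAt]; group
      _ = t * t' * (t * A) := by rw [hAt']; group
  · intro s σ hadd hsm hinj hsA hsx
    obtain ⟨α, h1, h2⟩ := key s σ hadd hsm hsA hsx
    have hs0 : s 0 = 0 := by
      have := hadd 0 0
      rw [add_zero] at this
      exact (add_eq_left.1 this.symm)
    have hα : α ≠ 0 := by
      intro h0
      rw [h0, zero_smul, ← hs0] at h1
      exact ha0 (hinj h1)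
    have h3 : s a = s w₀ + A • s w₀ := by
      conv_lhs => rw [ha]
      rw [hadd, hsA]
    have h4 : σ l • s a = (α * l) • a := by
      rw [h3, smul_add, ← smul_smul', h2, smul_add', smul_smul', smul_smul', hAa, hAw]
      calc (α * (l + σ l)) • a + (α * l) • w₀ + ((α * (l + σ l)) • a + (α * l) • (w₀ + a)) =
          (((α * (l + σ l)) • a + (α * l) • w₀) + ((α * (l + σ l)) • a + (α * l) • w₀)) + (α * l) • a := by module
        _ = _ := by rw [e2, zero_add]
    rw [h1, smul_smul] at h4
    have h5 : (σ l * α - α * l) • a = 0 := by rw [sub_smul, h4, sub_self]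
    have h6 := (smul_eq_zero.1 h5).resolve_right ha0
    have h7 : α * (σ l - l) = 0 := by rw [← h6]; ring
    exact sub_eq_zero.1 ((mul_eq_zero.1 h7).resolve_left hα)

end Two

end Cfsg.Agent.H736.SK
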